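import Mathlib

set_option autoImplicit false

namespace Cfsg.Agent.OIF

open Subgroup

/-- Abelian `2`-subgroups of `S` behave like those of the symmetric group of degree `2 k`. -/
def PB {H : Type*} [Group H] (k : ℕ) (S : Subgroup H) : Prop :=
  ∀ U V : Subgroup H, U ≤ S → (∀ a ∈ U, ∀ b ∈ U, a * b = b * a) → IsPGroup 2 U → ∀ j b : ℕ,
    (∀ v ∈ V, ∃ u ∈ U, u ^ 2 ^ j = v) → 2 ^ b ≤ Nat.card V → 2 ^ j * b ≤ k

theorem PB.mono {H : Type*} [Group H] {k : ℕ} {S T : Subgroup H} (h : PB k S) (hT : T ≤ S) :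
    PB k T := fun U V hU => h U V (hU.trans hT)

theorem PB.comap {H K : Type*} [Group H] [Group K] {k : ℕ} {S : Subgroup H} (h : PB k S)
    (f : K →* H) (hf : Function.Injective f) : PB k (S.comap f) := by
  intro U V hU hc hp j b hV hb
  refine h (U.map f) (V.map f) (map_le_iff_le_comap.2 hU) ?_ (hp.map f) j b ?_
    (by rwa [card_map_of_injective hf])
  · rintro _ ⟨x, hx, rfl⟩ _ ⟨y, hy, rfl⟩
    rw [← map_mul, hc x hx y hy, map_mul]
  · rintro _ ⟨v, hv, rfl⟩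
    obtain ⟨u, hu, rfl⟩ := hV v hv
    exact ⟨f u, mem_map_of_mem f hu, (map_pow f u _).symm⟩

end Cfsg.Agent.OIF
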