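import Mathlib
import Cfsg.Agent.OIF.Defs

set_option autoImplicit false

namespace Cfsg.Agent.OIF

open Subgroup

/-- The fibres of `g ↦ g α g⁻¹` are cosets of the centralizer. -/
theorem bf_fib {H : Type*} [Group H] [Finite H] (α : H) (S : Set H) :
    Nat.card {g : H // g * α * g⁻¹ ∈ S} ≤ Nat.card (centralizer ({α} : Set H)) * S.ncard := by
  classical
  have hr : ∀ s : H, ∃ r : H, (∃ g : H, g * α * g⁻¹ = s) → r * α * r⁻¹ = s := by
    intro s
    by_cases h : ∃ g : H, g * α * g⁻¹ = s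
    · obtain ⟨g, hg⟩ := h
      exact ⟨g, fun _ => hg⟩
    · exact ⟨1, fun h' => absurd h' h⟩
  choose r hr using hr
  have hc : ∀ g : H, (r (g * α * g⁻¹))⁻¹ * g ∈ centralizer ({α} : Set H) := by
    intro g
    rw [mem_centralizer_singleton_iff]
    have h := hr (g * α * g⁻¹) ⟨g, rfl⟩
    generalize r (g * α * g⁻¹) = t at h
    calc t⁻¹ * g * α = t⁻¹ * (g * α * g⁻¹) * g := by group
      _ = t⁻¹ * (t * α * t⁻¹) * g := by rw [h]
      _ = α * (t⁻¹ * g) := by group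
  let f : {g : H // g * α * g⁻¹ ∈ S} → centralizer ({α} : Set H) × S :=
    fun g => (⟨_, hc g.1⟩, ⟨_, g.2⟩)
  have hf : Function.Injective f := by
    intro g g' h
    have h1 : (r (g.1 * α * g.1⁻¹))⁻¹ * g.1 = (r (g'.1 * α * g'.1⁻¹))⁻¹ * g'.1 :=
      congrArg (fun z => (z.1 : H)) h
    have h2 : g.1 * α * g.1⁻¹ = g'.1 * α * g'.1⁻¹ := congrArg (fun z => (z.2 : H)) h
    rw [h2] at h1
    exact Subtype.ext (mul_left_cancel h1)
  have := Nat.card_le_card_of_injective f hf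
  rwa [Nat.card_prod, Nat.card_coe_set_eq S] at this

/-- Splitting a conjugate `β` of the involution `α`. -/
theorem bf_split {H : Type*} [Group H] [Finite H] {α : H} (hα : α * α = 1) (P : Sylow 2 H)
    {β : H} (hβ : IsConj α β) :
    ∃ g β' w : H, IsConj α β' ∧ β = β' * w ∧ (Odd (orderOf w) ∧ α * w * α⁻¹ = w⁻¹) ∧
      g * α * g⁻¹ ∈ (P : Subgroup H) ∧ g * β' * g⁻¹ ∈ (P : Subgroup H) := by
  haveI : Fact (Nat.Prime 2) := ⟨Nat.prime_two⟩
  have hβ2 : β * β = 1 := by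
    obtain ⟨c, rfl⟩ := isConj_iff.1 hβ
    calc c * α * c⁻¹ * (c * α * c⁻¹) = c * (α * α) * c⁻¹ := by group
      _ = 1 := by rw [hα]; group
  have hαi : α⁻¹ = α := inv_eq_of_mul_eq_one_right hα
  have hβi : β⁻¹ = β := inv_eq_of_mul_eq_one_right hβ2
  obtain ⟨x, hx⟩ : ∃ x : H, x = α * β := ⟨_, rfl⟩
  have hxi : α * x * α⁻¹ = x⁻¹ := by
    rw [hx, mul_inv_rev, hαi, hβi, ← mul_assoc, hα, one_mul]
  have hxz : ∀ k : ℤ, α * x ^ k * α⁻¹ = (x ^ k)⁻¹ := by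
    intro k
    rw [← conj_zpow, hxi, inv_zpow]
  obtain ⟨a, b, hb, hab⟩ := Nat.exists_eq_two_pow_mul_odd (orderOf_pos x).ne'
  have hcop : IsCoprime ((2 : ℤ) ^ (a + 1)) (b : ℤ) := by
    have : Nat.Coprime (2 ^ (a + 1)) b := Nat.Coprime.pow_left _ (Nat.coprime_two_left.2 hb)
    exact_mod_cast Nat.isCoprime_iff_coprime.2 this
  obtain ⟨u, v, huv⟩ := hcop
  have hx1 : x ^ ((2 : ℤ) ^ a * b) = 1 := by
    have := pow_orderOf_eq_one x
    rw [hab, ← zpow_natCast] at this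
    exact_mod_cast this
  obtain ⟨y, hy⟩ : ∃ y : H, y = x ^ (u * 2 ^ a) := ⟨_, rfl⟩
  obtain ⟨z, hz⟩ : ∃ z : H, z = x ^ (v * b) := ⟨_, rfl⟩
  have hyb : y ^ b = 1 := by
    rw [hy, ← zpow_natCast, ← zpow_mul, mul_assoc, mul_comm u, zpow_mul, hx1, one_zpow]
  have hza : z ^ (2 ^ a) = 1 := by
    rw [hz, ← zpow_natCast, ← zpow_mul]
    have : v * (b : ℤ) * ((2 ^ a : ℕ) : ℤ) = ((2 : ℤ) ^ a * b) * v := by push_cast; ring
    rw [this, zpow_mul, hx1, one_zpow]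
  have hdec : x = z * (y * y) := by
    rw [hy, hz, ← zpow_add, ← zpow_add]
    have : v * (b : ℤ) + (u * 2 ^ a + u * 2 ^ a) = 1 := by rw [← huv]; ring
    rw [this, zpow_one]
  have hyi : α * y * α⁻¹ = y⁻¹ := by rw [hy]; exact hxz _
  have hzi : α * z * α⁻¹ = z⁻¹ := by rw [hz]; exact hxz _
  have hyz : y * z = z * y := by rw [hy, hz, ← zpow_add, ← zpow_add, add_comm]
  have hβe : β = α * z * (y * y) := by
    rw [mul_assoc α, ← hdec, hx, ← mul_assoc, hα, one_mul]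
  have hconj : y * β * y⁻¹ = α * z := by
    have h1 : y * α = α * y⁻¹ := by
      have : α * y⁻¹ * α⁻¹ = y := by rw [← conj_inv, hyi, inv_inv]
      calc y * α = α * y⁻¹ * α⁻¹ * α := by rw [this]
        _ = α * y⁻¹ := by group
    calc y * β * y⁻¹ = (y * α) * (z * y) := by rw [hβe]; group
      _ = α * y⁻¹ * (y * z) := by rw [h1, hyz]
      _ = α * z := by group
  have hA : IsPGroup 2 (zpowers α) := by
    have h2 : orderOf α ∣ 2 ^ 1 := orderOf_dvd_of_pow_eq_one (by rw [pow_one, pow_two, hα])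
    obtain ⟨k, -, hk⟩ := (Nat.dvd_prime_pow Nat.prime_two).1 h2
    exact IsPGroup.of_card (n := k) (by rw [Nat.card_zpowers, hk])
  have hZ : IsPGroup 2 (zpowers z) := by
    obtain ⟨k, -, hk⟩ := (Nat.dvd_prime_pow Nat.prime_two).1 (orderOf_dvd_of_pow_eq_one hza)
    exact IsPGroup.of_card (n := k) (by rw [Nat.card_zpowers, hk])
  have hle : zpowers α ≤ normalizer (zpowers z : Set H) := by
    rw [zpowers_le]
    refine mem_normalizer_fintype ?_
    rintro _ ⟨k, rfl⟩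
    refine ⟨-k, ?_⟩
    show z ^ (-k) = α * z ^ k * α⁻¹
    rw [← conj_zpow, hzi, inv_zpow, zpow_neg]
  obtain ⟨Q, hQ⟩ := (IsPGroup.to_sup_of_normal_right' hA hZ hle).exists_le_sylow
  obtain ⟨g, hg⟩ := MulAction.exists_smul_eq H Q P
  have hmem : ∀ t ∈ (Q : Subgroup H), g * t * g⁻¹ ∈ (P : Subgroup H) := by
    intro t ht
    rw [← hg, Sylow.coe_subgroup_smul]
    exact smul_mem_pointwise_smul t (MulAut.conj g) _ ht
  have hαQ : α ∈ (Q : Subgroup H) := hQ (mem_sup_left (mem_zpowers α))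
  have hzQ : z ∈ (Q : Subgroup H) := hQ (mem_sup_right (mem_zpowers z))
  refine ⟨g, α * z, y * y, hβ.trans (isConj_iff.2 ⟨y, hconj⟩), hβe, ⟨?_, ?_⟩, hmem _ hαQ,
    hmem _ (mul_mem hαQ hzQ)⟩
  · refine Odd.of_dvd_nat hb (orderOf_dvd_of_pow_eq_one ?_)
    rw [← pow_two, ← pow_mul, mul_comm, pow_mul, hyb, one_pow]
  · calc α * (y * y) * α⁻¹ = (α * y * α⁻¹) * (α * y * α⁻¹) := by group
      _ = (y * y)⁻¹ := by rw [hyi, mul_inv_rev]

theorem bf {H : Type*} [Group H] [Finite H] {α : H} (hα : α * α = 1) {m : ℕ}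
    (hm : {x : H | Odd (orderOf x) ∧ α * x * α⁻¹ = x⁻¹}.ncard ≤ m) (P : Sylow 2 H) (E : Set H)
    (N : Subgroup H) (hE : ∀ δ, IsConj α δ → δ ∈ (P : Subgroup H) → δ ∈ E)
    (hN : ∀ n ∈ N, ∀ δ ∈ E, n * δ * n⁻¹ ∈ E) :
    Nat.card H * Nat.card N ≤ m * Nat.card (centralizer ({α} : Set H)) ^ 2 * E.ncard ^ 2 := by
  classical
  obtain ⟨D, hD⟩ : ∃ D : Set H, D = {δ | IsConj α δ} := ⟨_, rfl⟩
  obtain ⟨I, hI⟩ : ∃ I : Set H, I = {x : H | Odd (orderOf x) ∧ α * x * α⁻¹ = x⁻¹} := ⟨_, rfl⟩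
  rw [← hI] at hm
  have h1 : Nat.card H ≤ Nat.card (centralizer ({α} : Set H)) * D.ncard := by
    refine le_trans ?_ (bf_fib α D)
    refine Nat.card_le_card_of_injective
      (fun g => ⟨g, by rw [hD]; exact isConj_iff.2 ⟨g, rfl⟩⟩) ?_
    intro g g' h
    exact congrArg Subtype.val h
  have hs : ∀ β : D, ∃ g β' w : H, (β : H) = β' * w ∧ w ∈ I ∧
      g * α * g⁻¹ ∈ E ∧ g * β' * g⁻¹ ∈ E := by
    intro β
    have hβ : IsConj α β := (Set.ext_iff.1 hD β.1).1 β.2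
    obtain ⟨g, β', w, hc, he, hw, hgα, hgβ⟩ := bf_split hα P hβ
    exact ⟨g, β', w, he, by rw [hI]; exact hw, hE _ (isConj_iff.2 ⟨g, rfl⟩) hgα,
      hE _ (hc.trans (isConj_iff.2 ⟨g, rfl⟩)) hgβ⟩
  choose g β' w he hw hgα hgβ using hs
  have hn : ∀ (n : N) (t δ : H), t * δ * t⁻¹ ∈ E → (n * t) * δ * (n * t)⁻¹ ∈ E := by
    intro n t δ h
    have := hN n n.2 _ h
    convert this using 1
    group
  let f : D × N → {t : H // t * α * t⁻¹ ∈ E} × E × I := fun p =>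
    (⟨p.2 * g p.1, hn _ _ _ (hgα p.1)⟩, ⟨_, hn p.2 _ _ (hgβ p.1)⟩, ⟨w p.1, hw p.1⟩)
  have hf : Function.Injective f := by
    rintro ⟨b, n⟩ ⟨b', n'⟩ h
    have e1 : (n : H) * g b = n' * g b' := congrArg (fun z => (z.1 : H)) h
    have e2 : (n : H) * g b * β' b * (n * g b)⁻¹ = n' * g b' * β' b' * (n' * g b')⁻¹ :=
      congrArg (fun z => (z.2.1 : H)) h
    have e3 : w b = w b' := congrArg (fun z => (z.2.2 : H)) h
    rw [e1] at e2
    have e4 : β' b = β' b' := mul_left_cancel (mul_right_cancel e2)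
    have e5 : b = b' := Subtype.ext (by rw [he b, he b', e3, e4])
    subst e5
    exact Prod.ext rfl (Subtype.ext (mul_right_cancel e1))
  have h2 := Nat.card_le_card_of_injective f hf
  rw [Nat.card_prod, Nat.card_prod, Nat.card_prod, Nat.card_coe_set_eq D, Nat.card_coe_set_eq E,
    Nat.card_coe_set_eq I] at h2
  have h3 := bf_fib α E
  calc Nat.card H * Nat.card N
      ≤ Nat.card (centralizer ({α} : Set H)) * D.ncard * Nat.card N := Nat.mul_le_mul_right _ h1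
    _ = Nat.card (centralizer ({α} : Set H)) * (D.ncard * Nat.card N) := by ring
    _ ≤ Nat.card (centralizer ({α} : Set H)) *
        (Nat.card (centralizer ({α} : Set H)) * E.ncard * (E.ncard * m)) :=
      Nat.mul_le_mul_left _ (h2.trans (Nat.mul_le_mul h3 (Nat.mul_le_mul_left _ hm)))
    _ = _ := by ring

end Cfsg.Agent.OIF
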