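import Mathlib
import Cfsg.Agent.OIF.Defs
import Cfsg.Agent.GT.PGroupBasic

set_option autoImplicit false

namespace Cfsg.Agent.OIF

open Subgroup

theorem fib {α β : Type*} [Group α] [Finite α] [Finite β] (S : Set α) (T : Set β) (f : α → β)
    (hf : ∀ x ∈ S, f x ∈ T) (c : ℕ)
    (hc : ∀ x ∈ S, ∃ W : Set α, W.ncard ≤ c ∧ ∀ y ∈ S, f y = f x → x⁻¹ * y ∈ W) :
    S.ncard ≤ c * T.ncard := by
  classical
  rw [Set.ncard_eq_toFinset_card S, Set.ncard_eq_toFinset_card T]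
  refine Finset.card_le_mul_card_image_of_maps_to (f := f) (fun x hx => ?_) c fun b _ => ?_
  · simpa using hf x (by simpa using hx)
  rcases (Finset.filter (fun y => f y = b) (Set.toFinite S).toFinset).eq_empty_or_nonempty with
    h | ⟨x, hx⟩
  · rw [h]; exact Nat.zero_le _
  obtain ⟨hx1, hx2⟩ := Finset.mem_filter.1 hx
  obtain ⟨W, h1, h2⟩ := hc x (by simpa using hx1)
  rw [← Set.ncard_coe_finset]
  refine le_trans (Set.ncard_le_ncard_of_injOn (fun y => x⁻¹ * y) (fun y hy => ?_)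
    (fun y _ z _ h => mul_left_cancel h)) h1
  obtain ⟨hy1, hy2⟩ := Finset.mem_filter.1 hy
  exact h2 y (by simpa using hy1) (hy2.trans hx2.symm)

theorem ncard_coe {Y : Type*} [Group Y] (R : Subgroup Y) : (R : Set Y).ncard = Nat.card R :=
  (Nat.card_coe_set_eq _).symm

theorem tree {Y : Type*} [Group Y] [Finite Y] (a : Y) (R : Subgroup Y) (r : ℕ) :
    {y | y ∈ R ∧ a * y * a⁻¹ = y⁻¹ ∧ y ^ 2 ^ r = 1}.ncard ≤
      Nat.card ↥(R ⊓ centralizer {a}) ^ r := by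
  induction r with
  | zero =>
    rw [pow_zero, pow_zero]
    exact (Set.ncard_le_one_iff_subsingleton).2 fun x hx y hy => by
      have h1 := hx.2.2
      have h2 := hy.2.2
      rw [pow_one] at h1 h2
      rw [h1, h2]
  | succ r ih =>
    rw [pow_succ' (Nat.card _)]
    refine le_trans (fib _ _ (fun y => y ^ 2) (fun y hy => ?_) _ fun x hx =>
      ⟨(R ⊓ centralizer {a} : Subgroup Y), (ncard_coe _).le, fun y hy h => ?_⟩)
      (Nat.mul_le_mul_left _ ih)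
    · refine ⟨pow_mem hy.1 2, by rw [← conj_pow, hy.2.1, inv_pow], ?_⟩
      rw [← pow_mul, ← pow_succ', hy.2.2]
    · refine ⟨R.mul_mem (R.inv_mem hx.1) hy.1, mem_centralizer_singleton_iff.2 ?_⟩
      have h1 : a * (x⁻¹ * y) * a⁻¹ = x * y⁻¹ := by
        calc _ = (a * x * a⁻¹)⁻¹ * (a * y * a⁻¹) := by group
          _ = _ := by rw [hx.2.1, hy.2.1, inv_inv]
      have h2 : x * y⁻¹ = x⁻¹ * y := by
        calc x * y⁻¹ = x⁻¹ * x ^ 2 * y⁻¹ := by group
          _ = x⁻¹ * y ^ 2 * y⁻¹ := by rw [h]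
          _ = _ := by group
      rw [h2] at h1
      exact (mul_inv_eq_iff_eq_mul.1 h1).symm

theorem exists_scn {P : Type*} [Group P] [Finite P] (hP : IsPGroup 2 P) (Q : Subgroup P)
    [Q.Normal] : ∃ A : Subgroup P, A.Normal ∧ A ≤ Q ∧ (∀ a ∈ A, ∀ b ∈ A, a * b = b * a) ∧
      ∀ g ∈ Q, (∀ a ∈ A, g * a = a * g) → g ∈ A := by
  obtain ⟨A, ⟨h1, h2, h3⟩, hmax⟩ := (wellFounded_gt (α := Subgroup P)).has_min
    {A | A.Normal ∧ A ≤ Q ∧ ∀ a ∈ A, ∀ b ∈ A, a * b = b * a}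
    ⟨⊥, inferInstance, bot_le, by simp⟩
  refine ⟨A, h1, h2, h3, fun g hg hc => ?_⟩
  by_contra hn
  have hnil : Group.IsNilpotent (P ⧸ A) := (hP.to_quotient A).isNilpotent
  set C : Subgroup P := Q ⊓ centralizer (A : Set P) with hC
  have : (C.map (QuotientGroup.mk' A)).Normal :=
    Normal.map inferInstance _ (QuotientGroup.mk'_surjective A)
  have h4 : C.map (QuotientGroup.mk' A) ≠ ⊥ := fun e => hn (by
    have : QuotientGroup.mk' A g ∈ C.map (QuotientGroup.mk' A) :=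
      mem_map_of_mem _ ⟨hg, fun a ha => (hc a ha).symm⟩
    rw [e, mem_bot] at this
    exact (QuotientGroup.eq_one_iff g).1 this)
  obtain ⟨⟨_, ⟨z, hz, rfl⟩, hz2⟩, hz3⟩ := ne_bot_iff_exists_ne_one.1 (GT.PG.inf_center_ne_bot _ h4)
  have hz4 : z ∉ A := fun e => hz3 (Subtype.ext ((QuotientGroup.eq_one_iff z).2 e))
  set A' := (zpowers (QuotientGroup.mk' A z)).comap (QuotientGroup.mk' A) with hA'
  have h5 : ∀ y ∈ A', ∃ n : ℤ, ∃ a ∈ A, y = z ^ n * a := fun y ⟨n, hn⟩ =>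
    ⟨n, (z ^ n)⁻¹ * y, QuotientGroup.eq.1 (by simpa using hn), by group⟩
  have h6 : (zpowers (QuotientGroup.mk' A z)).Normal := ⟨fun y hy u => by
    rw [mem_center_iff.1 (zpowers_le.2 hz2 hy) u, mul_inv_cancel_right]; exact hy⟩
  refine hmax A' ⟨inferInstance, fun y hy => ?_, fun y hy w hw => ?_⟩ (lt_of_le_of_ne
    (fun a ha => ?_) fun e => hz4 (e ▸ (mem_zpowers _ : QuotientGroup.mk' A z ∈ _)))
  · obtain ⟨n, a, ha, rfl⟩ := h5 y hy
    exact Q.mul_mem (Q.zpow_mem hz.1 n) (h2 ha)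
  · obtain ⟨n, a, ha, rfl⟩ := h5 y hy
    obtain ⟨l, b, hb, rfl⟩ := h5 w hw
    have c : ∀ a ∈ A, Commute a z := fun a ha => hz.2 a ha
    exact (((Commute.refl z).zpow_zpow n l).mul_right ((c b hb).symm.zpow_left n)).mul_left
      (((c a ha).zpow_right l).mul_right (h3 a ha b hb))
  · change QuotientGroup.mk' A a ∈ zpowers _
    rw [QuotientGroup.mk'_apply A a, (QuotientGroup.eq_one_iff a).2 ha]
    exact one_mem _

end Cfsg.Agent.OIF
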