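import Mathlib
import Cfsg.Agent.OIF.Defs

set_option autoImplicit false
set_option linter.unusedSectionVars false

namespace Cfsg.Agent.OIF

open Subgroup

namespace UnipH

theorem choose_dvd {i m : ℕ} (h0 : m ≠ 0) (h1 : m ≤ 2 ^ i) : ∃ v ≤ i, 2 ^ v ≤ m ∧ 2 ^ (i - v) ∣ (2 ^ i).choose m := by
  obtain ⟨v, m', hm, e⟩ := Nat.exists_eq_two_pow_mul_odd h0
  have hv : 2 ^ v ≤ m := Nat.le_of_dvd (Nat.pos_of_ne_zero h0) ⟨m', e⟩
  have vi : v ≤ i := (Nat.pow_le_pow_iff_right (by norm_num)).1 (hv.trans h1)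
  refine ⟨v, vi, hv, ?_⟩
  have k := Nat.add_one_mul_choose_eq (2 ^ i - 1) (m - 1)
  rw [Nat.sub_add_cancel Nat.one_le_two_pow, Nat.sub_add_cancel (Nat.pos_of_ne_zero h0)] at k
  generalize (2 ^ i).choose m = C at k ⊢
  have k2 : 2 ^ v * (2 ^ (i - v) * (2 ^ i - 1).choose (m - 1)) = 2 ^ v * (C * m') := by
    rw [← mul_assoc, ← pow_add, Nat.add_sub_cancel' vi, k, e]; ring
  have k3 := Nat.eq_of_mul_eq_mul_left (by positivity) k2
  exact (Nat.Coprime.pow_left _ (Nat.coprime_two_left.2 hm)).dvd_of_dvd_mul_right ⟨_, k3.symm⟩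

variable {M : Type*} [AddCommGroup M] [Finite M]

theorem kill {N : AddMonoid.End M} {e : ℕ} (hN : N ^ e = 0) (r : ℕ) :
    ∀ W : AddSubgroup M, (∀ w ∈ W, N w ∈ W) → Nat.card W ≤ 2 ^ r → ∀ w ∈ W, (N ^ r) w = 0 := by
  induction r with
  | zero =>
    intro W _ hc w hw
    rw [AddSubgroup.eq_bot_of_card_le W hc] at hw
    exact AddSubgroup.mem_bot.1 hw
  | succ r ih =>
    intro W hW hc w hw
    have hle : W.map (N : M →+ M) ≤ W := by
      rintro _ ⟨x, hx, rfl⟩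
      exact hW x hx
    by_cases h : W ≤ W.map (N : M →+ M)
    · have key : ∀ n : ℕ, ∀ w ∈ W, ∃ x ∈ W, (N ^ n) x = w := fun n => by
        induction n with
        | zero => exact fun w hw => ⟨w, hw, rfl⟩
        | succ n ihn =>
          intro w hw
          obtain ⟨x, hx, rfl⟩ := ihn w hw
          obtain ⟨y, hy, rfl⟩ := h hx
          exact ⟨y, hy, by rw [pow_succ]; rfl⟩
      obtain ⟨x, -, rfl⟩ := key e w hw
      rw [hN]
      exact map_zero _
    · have h1 : Nat.card (W.map (N : M →+ M)) ≤ 2 ^ r := by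
        obtain ⟨c, hc'⟩ := AddSubgroup.card_dvd_of_le hle
        have c0 : c ≠ 0 := by
          rintro rfl
          exact Nat.card_pos.ne' hc'
        have c1 : c ≠ 1 := by
          rintro rfl
          exact h (AddSubgroup.eq_of_le_of_card_ge hle (by rw [hc', mul_one])).ge
        have : Nat.card (W.map (N : M →+ M)) * 2 ≤ Nat.card W := hc' ▸ Nat.mul_le_mul_left _ (by omega)
        rw [pow_succ] at hc
        omega
      have := ih _ (by
        rintro _ ⟨x, hx, rfl⟩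
        exact ⟨_, hW x hx, rfl⟩) h1 _ ⟨w, hw, rfl⟩
      rw [pow_succ]
      exact this

theorem nil {N : AddMonoid.End M} {n e : ℕ} (hM : Nat.card M = 2 ^ n) (h : (N + 1) ^ 2 ^ e = 1) :
    N ^ (2 ^ e * n) = 0 := by
  obtain ⟨r, hr⟩ := (Commute.one_right N).exists_add_pow_prime_pow_eq Nat.prime_two e
  rw [h, one_pow, mul_one, mul_assoc] at hr
  have e1 : N ^ 2 ^ e = ((2 : ℕ) : AddMonoid.End M) * -(N * r) := by
    rw [mul_neg, eq_neg_iff_add_eq_zero]
    have : (1 : AddMonoid.End M) + (N ^ 2 ^ e + (2 : ℕ) * (N * r)) = 1 + 0 := by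
      rw [add_zero]
      refine Eq.trans ?_ hr.symm
      abel
    exact add_left_cancel this
  have e2 : ((2 : ℕ) : AddMonoid.End M) ^ n = 0 := by
    rw [← Nat.cast_pow, ← hM]
    refine AddMonoidHom.ext fun m => ?_
    exact (AddMonoid.End.natCast_apply _ m).trans card_nsmul_eq_zero'
  rw [pow_mul, e1, (Nat.cast_commute 2 _).mul_pow, e2, zero_mul]

/-- the bound on the multiples of the fixed points of `g` -/
def Bd (k : ℕ) (g : AddMonoid.End M) : Prop :=
  ∀ (V : AddSubgroup M) (j b : ℕ), (∀ v ∈ V, ∃ u, g u = u ∧ 2 ^ j • u = v) → 2 ^ b ≤ Nat.card V → 2 ^ j * b ≤ k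

theorem Bd.ex {k n : ℕ} {g : AddMonoid.End M} (h : Bd k g) (hM : Nat.card M = 2 ^ n) (j : ℕ) :
    ∃ (V : AddSubgroup M) (b : ℕ), Nat.card V = 2 ^ b ∧ 2 ^ j * b ≤ k ∧ ∀ u, g u = u → 2 ^ j • u ∈ V := by
  let V : AddSubgroup M := (AddMonoidHom.eqLocus (g : M →+ M) (AddMonoidHom.id M)).map (nsmulAddMonoidHom (2 ^ j))
  obtain ⟨b, -, hb⟩ := (Nat.dvd_prime_pow Nat.prime_two).1 (hM ▸ V.card_addSubgroup_dvd_card)
  refine ⟨V, b, hb, h V j b ?_ hb.ge, fun u hu => ⟨u, hu, rfl⟩⟩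
  rintro _ ⟨u, hu, rfl⟩
  exact ⟨u, hu, rfl⟩

open Pointwise in
theorem main {g d : AddMonoid.End M} {n e k i : ℕ} (hM : Nat.card M = 2 ^ n) (hg : g * g = 1) (hd : d * d = 1)
    (he : (g * d) ^ 2 ^ e = 1) (h0 : Bd k g) (h1 : Bd k d) (hi : 2 * k < 2 ^ i) : (g * d) ^ 2 ^ i = 1 := by
  obtain ⟨N, hN⟩ : ∃ N, g * d = N + 1 := ⟨g * d - 1, (sub_add_cancel _ _).symm⟩
  have gg : ∀ m, g (g m) = m := fun m => congrArg (fun f : AddMonoid.End M => f m) hg
  have dd : ∀ m, d (d m) = m := fun m => congrArg (fun f : AddMonoid.End M => f m) hd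
  have eN : ∀ m, N m = (d m + g (d m)) - (m + d m) := fun m => by
    have : g (d m) = N m + m := congrArg (fun f : AddMonoid.End M => f m) hN
    rw [this]; abel
  rw [hN] at he ⊢
  have key : ∀ v ≤ i, ((2 ^ (i - v) : ℕ) : AddMonoid.End M) * N ^ 2 ^ v = 0 := fun v hv => by
    obtain ⟨V0, b0, c0, l0, m0⟩ := h0.ex hM (i - v)
    obtain ⟨V1, b1, c1, l1, m1⟩ := h1.ex hM (i - v)
    have hb : b0 + b1 < 2 ^ v := by
      refine Nat.lt_of_mul_lt_mul_left (a := 2 ^ (i - v)) ?_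
      rw [← pow_add, Nat.sub_add_cancel hv, mul_add]
      omega
    let W : AddSubgroup M := ((nsmulAddMonoidHom (2 ^ (i - v))).comp (N : M →+ M)).range
    have hW : ∀ w ∈ W, N w ∈ W := by
      rintro _ ⟨m, rfl⟩
      exact ⟨N m, (map_nsmul N _ _).symm⟩
    have hc : Nat.card W ≤ 2 ^ (2 ^ v - 1) := by
      have s : (W : Set M) ⊆ (V0 : Set M) + (V1 : Set M) := by
        rintro _ ⟨m, rfl⟩
        refine ⟨_, m0 (d m + g (d m)) (by rw [map_add, gg, add_comm]), _,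
          V1.neg_mem (m1 (m + d m) (by rw [map_add, dd, add_comm])), ?_⟩
        show _ = 2 ^ (i - v) • N m
        rw [eN, nsmul_sub, sub_eq_add_neg]
      calc Nat.card W ≤ Nat.card ((V0 : Set M) + (V1 : Set M) : Set M) := Nat.card_mono (Set.toFinite _) s
        _ ≤ Nat.card V0 * Nat.card V1 := Set.natCard_add_le
        _ ≤ 2 ^ (2 ^ v - 1) := by
          rw [c0, c1, ← pow_add]
          exact Nat.pow_le_pow_right (by norm_num) (by omega)
    refine AddMonoidHom.ext fun m => ?_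
    have k1 := kill (nil hM he) _ W hW hc _ ⟨m, rfl⟩
    have k2 : N ^ 2 ^ v = N ^ (2 ^ v - 1) * N := by rw [← pow_succ, Nat.sub_add_cancel Nat.one_le_two_pow]
    show ((2 ^ (i - v) : ℕ) : AddMonoid.End M) ((N ^ 2 ^ v) m) = 0
    rw [AddMonoid.End.natCast_apply, k2]
    exact (map_nsmul (N ^ (2 ^ v - 1)) _ _).symm.trans k1
  rw [(Commute.one_right N).add_pow, Finset.sum_eq_single 0 (fun m hm m0 => ?_) (by simp)]
  · simp
  · obtain ⟨v, hv, h2, c, hc⟩ := choose_dvd m0 (Nat.lt_succ_iff.1 (Finset.mem_range.1 hm))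
    obtain ⟨t, rfl⟩ := Nat.exists_eq_add_of_le h2
    rw [one_pow, mul_one, hc, Nat.cast_mul, ← mul_assoc,
      ← (Nat.cast_commute (2 ^ (i - v)) (N ^ (2 ^ v + t))).eq, pow_add, ← mul_assoc, key v hv,
      zero_mul, zero_mul]

end UnipH

theorem unip {P : Type*} [Group P] [Finite P] (hP : IsPGroup 2 P) (A : Subgroup P) [A.Normal]
    (hA : ∀ a ∈ A, ∀ b ∈ A, a * b = b * a) {γ δ : P} (hγ : γ * γ = 1) (hδ : δ * δ = 1) {k i : ℕ}
    (h0 : PB k (A ⊓ centralizer {γ})) (h1 : PB k (A ⊓ centralizer {δ})) (hi : 2 * k < 2 ^ i) :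
    ∀ a ∈ A, (γ * δ) ^ 2 ^ i * a = a * (γ * δ) ^ 2 ^ i := by
  letI : CommGroup A := { (inferInstance : Group A) with mul_comm := fun a b => Subtype.ext (hA a a.2 b b.2) }
  let c : P →* AddMonoid.End (Additive A) :=
    { toFun := fun g => MonoidHom.toAdditive (MulAut.conjNormal g : MulAut A).toMonoidHom
      map_one' := AddMonoidHom.ext fun m => by rw [map_one]; rfl
      map_mul' := fun g h => AddMonoidHom.ext fun m => by rw [map_mul]; rfl }
  have hc : ∀ g (m : Additive A), ((c g m).toMul : P) = g * (m.toMul : P) * g⁻¹ := fun g m => rfl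
  have bd : ∀ g, PB k (A ⊓ centralizer {g}) → UnipH.Bd k (c g) := fun g h V j b hV hb => by
    refine h (A ⊓ centralizer {g}) ((Subgroup.toAddSubgroup.symm V).map A.subtype) le_rfl
      (fun a ha b hb => hA a ha.1 b hb.1) (hP.to_subgroup _) j b ?_ ?_
    · rintro _ ⟨v, hv, rfl⟩
      obtain ⟨u, hu, e⟩ := hV (Additive.ofMul v) hv
      refine ⟨(u.toMul : A), ⟨u.toMul.2, mem_centralizer_singleton_iff.2 ?_⟩, ?_⟩
      · have := hc g u
        rw [hu] at this
        exact eq_mul_inv_iff_mul_eq.1 this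
      · exact congrArg (fun m : Additive A => (m.toMul : P)) e
    · rw [card_map_of_injective A.subtype_injective]
      exact hb
  obtain ⟨n, hn⟩ := (hP.to_subgroup A).exists_card_eq
  obtain ⟨e, he⟩ := hP (γ * δ)
  have key := UnipH.main (M := Additive A) (g := c γ) (d := c δ) (n := n) (e := e) hn
    (by rw [← map_mul, hγ, map_one]) (by rw [← map_mul, hδ, map_one])
    (by rw [← map_mul, ← map_pow, he, map_one]) (bd γ h0) (bd δ h1) hi
  rw [← map_mul, ← map_pow] at key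
  intro a ha
  have := hc ((γ * δ) ^ 2 ^ i) (Additive.ofMul ⟨a, ha⟩)
  rw [key] at this
  exact (eq_mul_inv_iff_mul_eq.1 this).symm

end Cfsg.Agent.OIF
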