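import Mathlib
import Cfsg.Agent.OIF.Defs
import Cfsg.Agent.OIF.Tree
import Cfsg.Agent.OIF.Unip
import Cfsg.Agent.GT.PiGroups

set_option autoImplicit false

namespace Cfsg.Agent.OIF

open Subgroup

/-- The elements of the abelian group `A` inverted by `γ`. -/
def Am {P : Type*} [Group P] (A : Subgroup P) (hA : ∀ a ∈ A, ∀ b ∈ A, a * b = b * a) (γ : P) :
    Subgroup P where
  carrier := {a | a ∈ A ∧ γ * a * γ⁻¹ = a⁻¹}
  one_mem' := ⟨A.one_mem, by simp⟩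
  inv_mem' := fun {a} h => ⟨A.inv_mem h.1, by rw [← conj_inv, h.2]⟩
  mul_mem' := fun {a b} h k => ⟨A.mul_mem h.1 k.1, by
    rw [← conj_mul, h.2, k.2, hA a h.1 b k.1, mul_inv_rev]⟩

section
variable {P : Type*} [Group P] [Finite P] {A : Subgroup P} {hA : ∀ a ∈ A, ∀ b ∈ A, a * b = b * a}

omit [Finite P] in
theorem Am_pow_index (γ : P) {a : P} (ha : a ∈ A) : a ^ (Am A hA γ).relIndex A ∈ Am A hA γ := by
  have : ((Am A hA γ).subgroupOf A).Normal := ⟨fun n hn g => by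
    have : g * n * g⁻¹ = n := Subtype.ext (by
      change (g : P) * n * (g : P)⁻¹ = n
      rw [hA g g.2 n n.2, mul_inv_cancel_right])
    rwa [this]⟩
  exact ((Am A hA γ).subgroupOf A).pow_index_mem ⟨a, ha⟩

omit [Finite P] in
theorem Am_card (γ : P) : Nat.card (Am A hA γ) * (Am A hA γ).relIndex A = Nat.card A := by
  rw [← ((Am A hA γ).subgroupOf A).card_mul_index,
    Nat.card_congr (subgroupOfEquivOfLe (fun a ha => ha.1 : Am A hA γ ≤ A)).toEquiv]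
  rfl

theorem Am_pow_exp (hP : IsPGroup 2 P) [hn : A.Normal] {γ : P} (hγ : γ * γ = 1) {k i : ℕ}
    (hi : 2 * k < 2 ^ i) (h : PB k (A ⊓ centralizer {γ})) {a : P} (ha : a ∈ A) :
    a ^ 2 ^ (i - 1) ∈ Am A hA γ := by
  have hb : γ * a * γ⁻¹ ∈ A := hn.conj_mem a ha γ
  have hc : Commute a (γ * a * γ⁻¹) := hA _ ha _ hb
  have hw : a * (γ * a * γ⁻¹) ∈ A ⊓ centralizer {γ} := by
    refine ⟨A.mul_mem ha hb, mem_centralizer_singleton_iff.2 ?_⟩
    calc a * (γ * a * γ⁻¹) * γ = a * (γ * a * γ⁻¹) * (γ * γ) * γ⁻¹ := by group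
      _ = γ * a * γ⁻¹ * (γ * γ) * a * γ⁻¹ := by rw [hγ, mul_one, mul_one, hc.eq]
      _ = γ * (a * (γ * a * γ⁻¹)) := by group
  have h1 : (a * (γ * a * γ⁻¹)) ^ 2 ^ (i - 1) = 1 := by
    by_contra hne
    have h2 := h _ (zpowers ((a * (γ * a * γ⁻¹)) ^ 2 ^ (i - 1))) le_rfl
      (fun x hx y hy => hA x hx.1 y hy.1) (hP.to_subgroup _) (i - 1) 1 (by
        rintro _ ⟨n, rfl⟩
        exact ⟨_, zpow_mem hw n, by
          rw [← zpow_natCast, ← zpow_mul, mul_comm n, zpow_mul, zpow_natCast]⟩) (by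
        rw [pow_one]
        exact (one_lt_card_iff_ne_bot _).2 (by simpa using hne))
    have h3 : 2 ^ i ≤ 2 ^ (i - 1 + 1) := Nat.pow_le_pow_right two_pos (by omega)
    rw [pow_succ] at h3
    omega
  refine ⟨A.pow_mem ha _, ?_⟩
  rw [hc.mul_pow, conj_pow] at h1
  exact eq_inv_of_mul_eq_one_right h1

theorem Am_card_le (hP : IsPGroup 2 P) {γ : P} {k f : ℕ} (h : PB k (A ⊓ centralizer {γ}))
    (B : Subgroup P) (hB : ∀ a ∈ A, a ^ 2 ^ f ∈ B) :
    Nat.card (Am A hA γ) ≤ (2 ^ k) ^ f * Nat.card B := by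
  obtain ⟨b, hb⟩ := (hP.to_subgroup (A ⊓ centralizer {γ})).exists_card_eq
  have h1 := h _ (A ⊓ centralizer {γ}) le_rfl (fun x hx y hy => hA x hx.1 y hy.1)
    (hP.to_subgroup _) 0 b (fun v hv => ⟨v, hv, by simp⟩) hb.ge
  have h2 := tree γ A f
  rw [hb] at h2
  rw [← ncard_coe, ← ncard_coe]
  refine fib _ _ (fun y => y ^ 2 ^ f) (fun y hy => hB y hy.1) _ fun x hx => ⟨_, h2.trans
    (Nat.pow_le_pow_left (Nat.pow_le_pow_right two_pos (by omega)) f), fun y hy e => ?_⟩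
  have h3 := (Am A hA γ).mul_mem ((Am A hA γ).inv_mem hx) hy
  refine ⟨h3.1, h3.2, ?_⟩
  have hc : Commute x⁻¹ y := hA _ (A.inv_mem hx.1) _ hy.1
  rw [hc.mul_pow, inv_pow, inv_mul_eq_one]
  exact e.symm

theorem quot_card_le [hn : A.Normal] {Q : Subgroup P} (hAQ : A ≤ Q) {α : P} (hα : α * α = 1) :
    Nat.card ↥(Q.map (QuotientGroup.mk' A) ⊓ centralizer {QuotientGroup.mk' A α}) *
      (Am A hA α).relIndex A ≤ Nat.card ↥(Q ⊓ centralizer {α}) := by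
  set R := Q.map (QuotientGroup.mk' A) ⊓ centralizer {QuotientGroup.mk' A α} with hR
  have h1 := GT.card_comap_mk' A R
  have hi : α⁻¹ = α := inv_eq_of_mul_eq_one_right hα
  have h2 : Nat.card (R.comap (QuotientGroup.mk' A)) ≤
      Nat.card ↥(Q ⊓ centralizer {α}) * Nat.card (Am A hA α) := by
    rw [← ncard_coe, ← ncard_coe (Am A hA α)]
    have hq : ∀ g ∈ R.comap (QuotientGroup.mk' A), g ∈ Q := fun g hg => by
      have : g ∈ (Q.map (QuotientGroup.mk' A)).comap (QuotientGroup.mk' A) := hg.1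
      rwa [comap_map_eq, QuotientGroup.ker_mk', sup_eq_left.2 hAQ] at this
    refine fib _ (Am A hA α : Set P) (fun g => g * α * g⁻¹ * α⁻¹) (fun g hg => And.intro ?_ ?_) _
      fun x hx =>
      ⟨(Q ⊓ centralizer {α} : Subgroup P), (ncard_coe _).le, fun y hy e => ⟨Q.mul_mem (Q.inv_mem (hq x hx)) (hq y hy),
        mem_centralizer_singleton_iff.2 ?_⟩⟩
    · rw [← QuotientGroup.eq_one_iff, ← QuotientGroup.mk'_apply, map_mul, map_mul, map_mul,
        mem_centralizer_singleton_iff.1 hg.2]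
      simp
    · calc _ = α * g * α * g⁻¹ * (α * α)⁻¹ := by group
        _ = α * g * α⁻¹ * g⁻¹ := by rw [hα, hi]; group
        _ = _ := by group
    · have e' : y * α * y⁻¹ = x * α * x⁻¹ := mul_right_cancel e
      calc x⁻¹ * y * α = x⁻¹ * (y * α * y⁻¹) * y := by group
        _ = _ := by rw [e']; group
  rw [h1, ← Am_card (hA := hA) α, mul_comm (Nat.card (Am A hA α)), ← mul_assoc] at h2
  exact Nat.le_of_mul_le_mul_right h2 Nat.card_pos

end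

theorem two {P : Type*} [Group P] [Finite P] (hP : IsPGroup 2 P) (Q : Subgroup P)
    (hQ : Q.index = 2) (Δ : Set P) {k i t : ℕ} (hi : 2 * k < 2 ^ i) (h1 : ∀ γ ∈ Δ, γ ∉ Q)
    (h2 : ∀ γ ∈ Δ, γ * γ = 1) (h3 : ∀ γ ∈ Δ, Nat.card ↥(Q ⊓ centralizer {γ}) ≤ 2 ^ t)
    (h4 : ∀ γ ∈ Δ, PB k (Q ⊓ centralizer {γ})) :
    ∃ B : Subgroup P, B ≤ Q ∧ (∀ γ ∈ Δ, ∀ b ∈ B, γ * b * γ⁻¹ = b⁻¹) ∧
      Δ.ncard ≤ 2 ^ (i * t + (i - 1) * (k - i)) * Nat.card B := by
  have := normal_of_index_eq_two hQ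
  obtain ⟨A, hn, hAQ, hA, hs⟩ := exists_scn hP Q
  rcases Δ.eq_empty_or_nonempty with rfl | hne
  · exact ⟨⊥, bot_le, by simp, by simp⟩
  have h5 : ∀ γ ∈ Δ, PB k (A ⊓ centralizer {γ}) := fun γ hγ =>
    (h4 γ hγ).mono (inf_le_inf_right _ hAQ)
  obtain ⟨α, hα, hmax⟩ := Set.exists_max_image Δ (fun γ => (Am A hA γ).relIndex A)
    (Set.toFinite _) hne
  have hg : ∀ γ, ∃ g, (Am A hA γ).relIndex A = 2 ^ g := fun γ =>
    (hP.to_subgroup A).index ((Am A hA γ).subgroupOf A)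
  obtain ⟨g, hgα⟩ := hg α
  set f := min g (i - 1) with hf
  set B : Subgroup P := A ⊓ ⨅ γ ∈ Δ, Am A hA γ with hB
  have h6 : ∀ a ∈ A, a ^ 2 ^ f ∈ B := fun a ha => by
    refine ⟨A.pow_mem ha _, mem_iInf.2 fun γ => mem_iInf.2 fun hγ => ?_⟩
    rcases min_choice g (i - 1) with e | e <;> rw [hf, e]
    · obtain ⟨g', hg'⟩ := hg γ
      have h7 := hmax γ hγ
      simp only [hg', hgα] at h7
      obtain ⟨c, hc⟩ := pow_dvd_pow 2 ((Nat.pow_le_pow_iff_right one_lt_two).1 h7)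
      rw [hc, pow_mul, ← hg']
      exact pow_mem (Am_pow_index γ ha) c
    · exact Am_pow_exp hP (h2 γ hγ) hi (h5 γ hγ) ha
  refine ⟨B, inf_le_left.trans hAQ, fun γ hγ b hb =>
    (mem_iInf.1 (mem_iInf.1 hb.2 γ) hγ).2, ?_⟩
  have h7 := (quot_card_le (hA := hA) hAQ (h2 α hα)).trans (h3 α hα)
  have h8 := tree (QuotientGroup.mk' A α) (Q.map (QuotientGroup.mk' A)) i
  set r := Nat.card ↥(Q.map (QuotientGroup.mk' A) ⊓ centralizer {QuotientGroup.mk' A α}) with hr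
  rw [hgα] at h7
  have h9 : g ≤ t := (Nat.pow_le_pow_iff_right one_lt_two).1
    ((Nat.le_mul_of_pos_left _ Nat.card_pos).trans h7)
  have h10 : r ≤ 2 ^ (t - g) := Nat.le_of_mul_le_mul_right (c := 2 ^ g)
    (by rwa [← pow_add, Nat.sub_add_cancel h9]) (by positivity)
  have hinv : ∀ γ ∈ Δ, γ⁻¹ = γ := fun γ hγ => inv_eq_of_mul_eq_one_right (h2 γ hγ)
  refine le_trans (fib Δ _ (fun γ => QuotientGroup.mk' A (α * γ)) (fun γ hγ => ?_)
    ((2 ^ k) ^ f * Nat.card B) fun γ hγ => ⟨Am A hA γ, (ncard_coe _).trans_le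
      (Am_card_le hP (h5 γ hγ) B h6), fun δ hδ e => ⟨?_, ?_⟩⟩)
    ((Nat.mul_le_mul_left _ (h8.trans (Nat.pow_le_pow_left h10 i))).trans ?_)
  · have hq : α * γ ∈ Q := (mul_mem_iff_of_index_two hQ).2 (iff_of_false (h1 α hα) (h1 γ hγ))
    refine ⟨mem_map_of_mem _ hq, ?_, ?_⟩
    · rw [← map_inv, ← map_mul, ← map_mul, ← map_inv, mul_inv_rev, hinv γ hγ, ← mul_assoc,
        h2 α hα, one_mul]
    · rw [← map_pow]
      exact (QuotientGroup.eq_one_iff _).2 (hs _ (Q.pow_mem hq _)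
        (unip hP A hA (h2 α hα) (h2 γ hγ) (h5 α hα) (h5 γ hγ) hi))
  · have := QuotientGroup.eq.1 e.symm
    rwa [mul_inv_rev, mul_assoc, inv_mul_cancel_left] at this
  · rw [mul_inv_cancel_left, mul_inv_rev, inv_inv, hinv γ hγ, hinv δ hδ]
  · rw [mul_right_comm, ← pow_mul, ← pow_mul, ← pow_add]
    refine Nat.mul_le_mul_right _ (Nat.pow_le_pow_right two_pos ?_)
    obtain ⟨s, rfl⟩ := Nat.exists_eq_add_of_le h9
    have e1 : f ≤ g := min_le_left _ _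
    have e2 : f ≤ i - 1 := min_le_right _ _
    have e3 : k ≤ i + (k - i) := by omega
    rw [Nat.add_sub_cancel_left]
    nlinarith [Nat.mul_le_mul_right f e3, Nat.mul_le_mul_left i e1,
      Nat.mul_le_mul_right (k - i) e2]

end Cfsg.Agent.OIF
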