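import Mathlib
import Cfsg.Agent.OIF.Defs
import Cfsg.Agent.OIF.Two
import Cfsg.Agent.OIF.BF
import Cfsg.Agent.Loc.ChermakDelgado

set_option autoImplicit false

namespace Cfsg.Agent.OIF

open Subgroup

theorem cd (G : Type*) [Group G] [Finite G] : ∃ M : Subgroup G, M.Normal ∧
    (∀ a ∈ M, ∀ b ∈ M, a * b = b * a) ∧ ∀ B K : Subgroup G, K ≤ centralizer (B : Set G) →
      Nat.card B * Nat.card K ≤ Nat.card M * Nat.card G := by
  obtain ⟨M, hM, hmin⟩ := (wellFounded_lt (α := Subgroup G)).has_min {R | IsCentralizerLarge R}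
    (Loc.exists_isCentralizerLarge G)
  have key : ∀ R, IsCentralizerLarge R → M ≤ R := fun R hR => by
    by_contra h
    exact hmin _ (Loc.cd_inf hM hR) (lt_of_le_of_ne inf_le_left fun e => h (inf_eq_left.1 e))
  refine ⟨M, ⟨fun n hn g => ?_⟩, fun a ha b hb => key _ (Loc.cd_centralizer hM) hb a ha,
    fun B K hK => ?_⟩
  · have h1 : IsCentralizerLarge (M.map (MulAut.conj g⁻¹).toMonoidHom) := by
      refine Loc.isCentralizerLarge_of_le ((Loc.isCentralizerLarge_iff.1 hM).ge.trans ?_)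
      unfold Loc.cdMeasure
      rw [card_map_of_injective (MulAut.conj g⁻¹).injective]
      refine Nat.mul_le_mul_left _ ?_
      rw [← card_map_of_injective (f := (MulAut.conj g⁻¹).toMonoidHom) (MulAut.conj g⁻¹).injective]
      refine card_le_of_le ?_
      rintro _ ⟨x, hx, rfl⟩ _ ⟨y, hy, rfl⟩
      rw [← map_mul, hx y hy, map_mul]
    obtain ⟨y, hy, rfl⟩ := key _ h1 hn
    simpa [mul_assoc] using hy
  · refine (Nat.mul_le_mul_left _ (card_le_of_le hK)).trans ((Loc.cdMeasure_le_max B).trans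
      ((Loc.isCentralizerLarge_iff.1 hM).ge.trans (Nat.mul_le_mul_left _ (card_le_card_group _))))

theorem two_pow_le {k s : ℕ} (hk : 1 ≤ k) (h : 2 ^ s ∣ 2 ^ k * k.factorial) : s ≤ 2 * k - 1 := by
  have h1 := (padicValNat_dvd_iff_le (by positivity)).1 h
  rw [padicValNat.mul (by positivity) (by positivity), padicValNat.prime_pow] at h1
  have h2 := sub_one_mul_padicValNat_factorial_lt_of_ne_zero (p := 2) (n := k) (by omega)
  omega

theorem core {H : Type*} [Group H] [Finite H] (G : Subgroup H) (hG : G.index = 2) {α : H}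
    (hα : α ∉ G) (hα2 : α * α = 1) {m k i : ℕ} (hk : 1 ≤ k) (hi : 2 * k < 2 ^ i)
    (hm : {x : H | Odd (orderOf x) ∧ α * x * α⁻¹ = x⁻¹}.ncard ≤ m)
    (h1 : Nat.card ↥(G ⊓ centralizer {α}) ∣ 2 ^ k * k.factorial)
    (h2 : PB k (G ⊓ centralizer {α})) :
    ∃ M : Subgroup G, M.Normal ∧ (∀ a ∈ M, ∀ b ∈ M, a * b = b * a) ∧
      M.index ≤ m ^ 2 * (2 ^ k * k.factorial) ^ 4 * 2 ^ (i * (2 * k - 1) + (i - 1) * (k - i)) := by
  have hn := normal_of_index_eq_two hG
  obtain ⟨P, hP⟩ := (IsPGroup.of_card (p := 2) (n := 1) (G := zpowers α) (by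
    rw [Nat.card_zpowers, pow_one]
    exact orderOf_eq_prime (by rw [sq, hα2]) fun e => hα (e ▸ G.one_mem))).exists_le_sylow
  have hαP : α ∈ (P : Subgroup H) := hP (mem_zpowers α)
  have hD : ∀ δ, IsConj α δ → δ ∉ G ∧ δ * δ = 1 := fun δ hδ => by
    obtain ⟨g, rfl⟩ := isConj_iff.1 hδ
    exact ⟨fun h => hα (by simpa [mul_assoc] using hn.conj_mem _ h g⁻¹), by
      rw [conj_mul, hα2]; simp⟩
  have hDG : ∀ δ, IsConj α δ → α * δ ∈ G := fun δ hδ =>
    (mul_mem_iff_of_index_two hG).2 (iff_of_false hα (hD δ hδ).1)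
  set c := 2 ^ k * k.factorial with hc
  have hc2 : Nat.card (centralizer ({α} : Set H)) ≤ 2 * c := by
    rw [← (G.subgroupOf (centralizer {α})).index_mul_card]
    refine Nat.mul_le_mul (Nat.le_of_dvd two_pos (hG ▸ relIndex_dvd_index_of_normal _ _)) ?_
    rw [← inf_subgroupOf_right, Nat.card_congr (subgroupOfEquivOfLe inf_le_right).toEquiv]
    exact Nat.le_of_dvd (by positivity) h1
  set Q := G.subgroupOf (P : Subgroup H) with hQ
  have hQ2 : Q.index = 2 := by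
    have h3 := relIndex_dvd_index_of_normal G (P : Subgroup H)
    rw [hG] at h3
    exact ((Nat.dvd_prime Nat.prime_two).1 h3).resolve_left fun e => hα (relIndex_eq_one.1 e hαP)
  have hT : ∀ γ : (P : Subgroup H), IsConj α γ → ∃ f : (P : Subgroup H) →* H,
      Function.Injective f ∧ Q ⊓ centralizer {γ} ≤ (G ⊓ centralizer {α}).comap f := fun γ hγ => by
    obtain ⟨g, hg⟩ := isConj_iff.1 hγ
    refine ⟨(MulAut.conj g⁻¹).toMonoidHom.comp (Subgroup.subtype _),
      (MulAut.conj g⁻¹).injective.comp Subtype.val_injective, fun x hx => ⟨hn.conj_mem _ hx.1 _,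
        mem_centralizer_singleton_iff.2 ?_⟩⟩
    have h3 : (x : H) * γ = γ * x := congrArg Subtype.val (mem_centralizer_singleton_iff.1 hx.2)
    change g⁻¹ * x * g⁻¹⁻¹ * α = α * (g⁻¹ * x * g⁻¹⁻¹)
    calc _ = g⁻¹ * (x * (g * α * g⁻¹)) * g := by group
      _ = _ := by rw [hg, h3, ← hg]; group
  obtain ⟨B, hB1, hB2, hB3⟩ := two P.isPGroup' Q hQ2 {γ | IsConj α γ} (t := 2 * k - 1) hi
    (fun γ hγ => (hD γ hγ).1) (fun γ hγ => Subtype.ext (hD γ hγ).2) (fun γ hγ => by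
      obtain ⟨f, hf, h3⟩ := hT γ hγ
      obtain ⟨s, hs⟩ := (P.isPGroup'.to_subgroup (Q ⊓ centralizer {γ})).exists_card_eq
      rw [hs]
      exact Nat.pow_le_pow_right two_pos (two_pow_le hk (hs ▸ (card_dvd_of_le h3).trans
        ((card_comap_dvd_of_injective _ f hf).trans h1)))) fun γ hγ => by
      obtain ⟨f, hf, h3⟩ := hT γ hγ
      exact (h2.comap f hf).mono h3
  set X := 2 ^ (i * (2 * k - 1) + (i - 1) * (k - i)) with hX
  set d := {γ : (P : Subgroup H) | IsConj α γ}.ncard with hd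
  have e1 : Nat.card H = 2 * Nat.card G := by rw [← G.index_mul_card, hG]
  have e2 : Nat.card (P : Subgroup H) = 2 * Nat.card Q := by rw [← Q.index_mul_card, hQ2]
  have hdQ : d ≤ Nat.card Q := by
    rw [← ncard_coe]
    exact Set.ncard_le_ncard_of_injOn (fun γ => ⟨α, hαP⟩ * γ) (fun γ hγ => hDG γ hγ)
      fun x _ y _ h => mul_left_cancel h
  have b1 := bf hα2 hm P (Subtype.val '' {γ : (P : Subgroup H) | IsConj α γ}) P
    (fun δ hδ hp => ⟨⟨δ, hp⟩, hδ, rfl⟩) (by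
      rintro n hn _ ⟨δ, hδ, rfl⟩
      exact ⟨⟨n, hn⟩ * δ * ⟨n, hn⟩⁻¹, hδ.trans (isConj_iff.2 ⟨n, rfl⟩), rfl⟩)
  rw [Set.ncard_image_of_injective _ Subtype.val_injective, e1, e2, ← hd] at b1
  have f1 : Nat.card G ≤ m * c ^ 2 * (X * Nat.card B) := by
    refine Nat.le_of_mul_le_mul_right (c := 4 * Nat.card Q) ?_ (by have := Nat.card_pos (α := Q); omega)
    calc _ = 2 * Nat.card G * (2 * Nat.card Q) := by ring
      _ ≤ m * (2 * c) ^ 2 * ((X * Nat.card B) * Nat.card Q) := by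
        refine b1.trans ?_
        rw [sq d]
        gcongr
      _ = _ := by ring
  set B' := B.map (P : Subgroup H).subtype with hB'
  set K := G ⊓ centralizer (B' : Set H) with hK
  have hinv : ∀ δ, IsConj α δ → δ ∈ (P : Subgroup H) → ∀ b ∈ B', δ * b * δ⁻¹ = b⁻¹ := by
    rintro δ hδ hp _ ⟨b, hb, rfl⟩
    exact congrArg Subtype.val (hB2 ⟨δ, hp⟩ hδ b hb)
  have b2 := bf hα2 hm P {δ | IsConj α δ ∧ ∀ b ∈ B', δ * b * δ⁻¹ = b⁻¹} (normalizer (B' : Set H))
    (fun δ hδ hp => ⟨hδ, hinv δ hδ hp⟩) fun n hn δ hδ =>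
      ⟨hδ.1.trans (isConj_iff.2 ⟨n, rfl⟩), fun b hb => by
        have h3 := hδ.2 _ ((mem_normalizer_iff''.1 hn b).1 hb)
        calc _ = n * (δ * (n⁻¹ * b * n) * δ⁻¹) * n⁻¹ := by group
          _ = _ := by rw [h3]; group⟩
  have hEK : {δ | IsConj α δ ∧ ∀ b ∈ B', δ * b * δ⁻¹ = b⁻¹}.ncard ≤ Nat.card K := by
    rw [← ncard_coe]
    refine Set.ncard_le_ncard_of_injOn (fun δ => α * δ) (fun δ hδ => ⟨hDG δ hδ.1, fun b hb => ?_⟩)
      fun x _ y _ h => mul_left_cancel h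
    have h3 := hinv α (IsConj.refl α) hαP _ (B'.inv_mem hb)
    calc b * (α * δ) = α * b⁻¹ * α⁻¹ * (α * δ) := by rw [h3, inv_inv]
      _ = α * (δ * b * δ⁻¹) * δ := by rw [hδ.2 b hb]; group
      _ = _ := by group
  have hKN : 2 * Nat.card K ≤ Nat.card (normalizer (B' : Set H)) := by
    have h3 : K ≤ normalizer (B' : Set H) := inf_le_right.trans (centralizer_le_normalizer _)
    have h4 : α ∈ normalizer (B' : Set H) := mem_normalizer_fintype fun b hb => by
      rw [hinv α (IsConj.refl α) hαP b hb]; exact B'.inv_mem hb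
    rw [← (K.subgroupOf _).index_mul_card (G := normalizer (B' : Set H)),
      Nat.card_congr (subgroupOfEquivOfLe h3).toEquiv]
    exact Nat.mul_le_mul_right _ (one_lt_index_of_ne_top fun e =>
      hα (subgroupOf_eq_top.1 e h4).1)
  have f2 : Nat.card G ≤ m * c ^ 2 * Nat.card K := by
    refine Nat.le_of_mul_le_mul_right (c := 4 * Nat.card K) ?_ (by have := Nat.card_pos (α := K); omega)
    calc _ = Nat.card H * (2 * Nat.card K) := by rw [e1]; ring
      _ ≤ m * (2 * c) ^ 2 * Nat.card K ^ 2 := by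
        refine (Nat.mul_le_mul_left _ hKN).trans (b2.trans ?_)
        gcongr
      _ = _ := by ring
  obtain ⟨M, hM1, hM2, hM3⟩ := cd G
  have hBG : B' ≤ G := map_le_iff_le_comap.2 hB1
  have f3 := hM3 (B'.subgroupOf G) (K.subgroupOf G) fun x hx b hb => Subtype.ext (hx.2 b hb)
  rw [Nat.card_congr (subgroupOfEquivOfLe hBG).toEquiv,
    Nat.card_congr (subgroupOfEquivOfLe (inf_le_left : K ≤ G)).toEquiv,
    card_map_of_injective (subtype_injective _)] at f3
  refine ⟨M, hM1, hM2, Nat.le_of_mul_le_mul_right (c := Nat.card M * Nat.card G) ?_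
    (Nat.mul_pos Nat.card_pos Nat.card_pos)⟩
  calc _ = Nat.card G * Nat.card G := by rw [← mul_assoc, M.index_mul_card]
    _ ≤ m * c ^ 2 * (X * Nat.card B) * (m * c ^ 2 * Nat.card K) := Nat.mul_le_mul f1 f2
    _ = m ^ 2 * c ^ 4 * X * (Nat.card B * Nat.card K) := by ring
    _ ≤ _ := Nat.mul_le_mul_left _ f3

end Cfsg.Agent.OIF
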