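import Mathlib
import Cfsg.Agent.OIF.Defs
import Cfsg.Agent.OIF.Core

set_option autoImplicit false

namespace Cfsg.Agent.OIF

open Subgroup

theorem PB.map {G H : Type*} [Group G] [Group H] {k : ℕ} {T : Subgroup G} (h : PB k T)
    (f : G →* H) (hf : Function.Injective f) : PB k (T.map f) := by
  intro U V hU hc hp j b hV hb
  have hr : V ≤ f.range := fun v hv => by
    obtain ⟨u, hu, rfl⟩ := hV v hv
    exact pow_mem (map_le_range f T (hU hu)) _
  refine h (U.comap f) (V.comap f) ((comap_mono hU).trans (comap_map_eq_self_of_injective hf T).le)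
    (fun x hx y hy => hf (by rw [map_mul, map_mul, hc _ hx _ hy])) (hp.comap_of_injective f hf) j b
    (fun v hv => ?_) (by rwa [← card_map_of_injective hf, map_comap_eq_self hr])
  obtain ⟨u, hu, e⟩ := hV _ hv
  obtain ⟨w, -, rfl⟩ := hU hu
  exact ⟨w, hu, hf (by rw [map_pow, e])⟩

theorem coreA_abs {G H : Type*} [Group G] [Finite G] [Group H] [Finite H] (β : MulAut G) (f : G →* H)
    (hf : Function.Injective f) (hG : f.range.index = 2) {α : H} (hα : α ∉ f.range) (hα2 : α * α = 1)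
    (hc : ∀ g, α * f g * α⁻¹ = f (β g)) {m k i : ℕ}
    (hk : 1 ≤ k) (hi : 2 * k < 2 ^ i) (hm : {x : G | Odd (orderOf x) ∧ β x = x⁻¹}.ncard ≤ m)
    (T : Subgroup G) (hT : ∀ g, g ∈ T ↔ β g = g) (h1 : Nat.card T ∣ 2 ^ k * k.factorial)
    (h2 : PB k T) :
    ∃ M : Subgroup G, M.Normal ∧ (∀ a ∈ M, ∀ b ∈ M, a * b = b * a) ∧
      M.index ≤ m ^ 2 * (2 ^ k * k.factorial) ^ 4 * 2 ^ (i * (2 * k - 1) + (i - 1) * (k - i)) := by
  have e : f.range ⊓ centralizer {α} = T.map f := by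
    ext x
    rw [mem_inf, mem_centralizer_singleton_iff]
    constructor
    · rintro ⟨⟨g, rfl⟩, h⟩
      exact ⟨g, (hT g).2 (hf (by rw [← hc, ← h, mul_inv_cancel_right])), rfl⟩
    · rintro ⟨g, hg, rfl⟩
      exact ⟨⟨g, rfl⟩, (mul_inv_eq_iff_eq_mul.1 ((hc g).trans (congrArg f ((hT g).1 hg)))).symm⟩
  have hs : {x : H | Odd (orderOf x) ∧ α * x * α⁻¹ = x⁻¹} ⊆ f '' {x : G | Odd (orderOf x) ∧ β x = x⁻¹} := by
    rintro x ⟨⟨t, ht⟩, hx⟩
    have k1 : (x * x) ^ (t + 1) = x := by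
      rw [← pow_two, ← pow_mul, show 2 * (t + 1) = 2 * t + 1 + 1 by ring, pow_succ, ← ht, pow_orderOf_eq_one,
        one_mul]
    obtain ⟨g, rfl⟩ : x ∈ f.range := k1 ▸ pow_mem (mul_self_mem_of_index_two hG x) _
    exact ⟨g, ⟨⟨t, by rw [← ht, orderOf_injective f hf]⟩, hf (by rw [← hc, hx, map_inv])⟩, rfl⟩
  obtain ⟨M, n, c, l⟩ := core f.range hG hα hα2 hk hi
    (((Set.ncard_le_ncard hs).trans (Set.ncard_image_le)).trans hm)
    (by rwa [e, card_map_of_injective hf]) (e ▸ h2.map f hf)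
  refine ⟨M.comap f.rangeRestrict, n.comap _, fun a ha b hb => hf ?_, ?_⟩
  · rw [map_mul, map_mul]
    exact congrArg Subtype.val (c _ ha _ hb)
  · rwa [index_comap_of_surjective _ f.rangeRestrict_surjective]

/-- Automorphism form of `core`. -/
theorem core' {G : Type*} [Group G] [Finite G] (β : MulAut G) (hβ : β ^ 2 = 1) {m k i : ℕ}
    (hk : 1 ≤ k) (hi : 2 * k < 2 ^ i) (hm : {x : G | Odd (orderOf x) ∧ β x = x⁻¹}.ncard ≤ m)
    (T : Subgroup G) (hT : ∀ g, g ∈ T ↔ β g = g) (h1 : Nat.card T ∣ 2 ^ k * k.factorial)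
    (h2 : PB k T) :
    ∃ M : Subgroup G, M.Normal ∧ (∀ a ∈ M, ∀ b ∈ M, a * b = b * a) ∧
      M.index ≤ m ^ 2 * (2 ^ k * k.factorial) ^ 4 * 2 ^ (i * (2 * k - 1) + (i - 1) * (k - i)) := by
  have n : (-1 : ℤˣ) ≠ 1 := by decide
  let φ : ℤˣ →* MulAut G := MonoidHom.mk' (fun u => if u = 1 then 1 else β) fun u v => by
    rcases Int.units_eq_one_or u with rfl | rfl <;> rcases Int.units_eq_one_or v with rfl | rfl <;>
      simp [n, ← pow_two, hβ]
  have : Finite (G ⋊[φ] ℤˣ) := Finite.of_equiv _ SemidirectProduct.equivProd.symm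
  refine coreA_abs β (SemidirectProduct.inl : G →* G ⋊[φ] ℤˣ) SemidirectProduct.inl_injective ?_
    (α := SemidirectProduct.inr (-1)) ?_ ?_ (fun g => ?_) hk hi hm T hT h1 h2
  · rw [SemidirectProduct.range_inl_eq_ker_rightHom, index_ker,
      MonoidHom.range_eq_top.2 SemidirectProduct.rightHom_surjective, card_top, Nat.card_eq_fintype_card]
    rfl
  · rw [SemidirectProduct.range_inl_eq_ker_rightHom, MonoidHom.mem_ker, SemidirectProduct.rightHom_inr]
    exact n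
  · rw [← map_mul, neg_mul_neg, mul_one, map_one]
  · rw [← map_inv, ← SemidirectProduct.inl_aut]
    simp [φ, n]

end Cfsg.Agent.OIF
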