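import Mathlib
import Cfsg.Agent.OIF.Defs

set_option autoImplicit false

namespace Cfsg.Agent.OIF

open Subgroup

theorem Num.small : ∀ k ≤ 324, ∀ i ≤ 11, 1 ≤ k → 2 * k < 2 ^ i → 2 ^ i ≤ 4 * k →
    (2 * k + 1) ^ 2 * (2 ^ k * k.factorial) ^ 4 * 2 ^ (i * (2 * k - 1) + (i - 1) * (k - i)) <
      (2 * k + 1).factorial ^ 4 := by
  decide +kernel

theorem Num.pow_le (n : ℕ) : n ^ n ≤ 3 ^ n * n.factorial := by
  have h1 := Real.pow_div_factorial_le_exp (n : ℝ) (Nat.cast_nonneg n) n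
  have h2 : Real.exp (n : ℝ) ≤ 3 ^ n := by
    rw [← mul_one (n : ℝ), Real.exp_nat_mul]
    exact pow_le_pow_left₀ (Real.exp_pos 1).le (Real.exp_one_lt_d9.le.trans (by norm_num)) n
  have h3 : (0 : ℝ) < n.factorial := by exact_mod_cast n.factorial_pos
  have h4 := (div_le_iff₀ h3).mp (h1.trans h2)
  exact_mod_cast h4

theorem Num.four_le {k : ℕ} (hk : 1 ≤ k) :
    4 ^ k * (k.factorial * k.factorial) ≤ (2 * k + 1).factorial := by
  have h1 := Nat.four_pow_le_two_mul_self_mul_centralBinom k hk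
  have h2 : k.centralBinom * k.factorial * k.factorial = (2 * k).factorial := by
    have := Nat.choose_mul_factorial_mul_factorial (n := 2 * k) (k := k) (by omega)
    rwa [show 2 * k - k = k by omega] at this
  calc 4 ^ k * (k.factorial * k.factorial)
      ≤ 2 * k * k.centralBinom * (k.factorial * k.factorial) := Nat.mul_le_mul_right _ h1
    _ = 2 * k * (2 * k).factorial := by rw [← h2]; ring
    _ ≤ (2 * k + 1).factorial := by
      rw [Nat.factorial_succ]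
      exact Nat.mul_le_mul_right _ (Nat.le_succ _)

theorem num {k i : ℕ} (hk : 1 ≤ k) (h1 : 2 * k < 2 ^ i) (h2 : 2 ^ i ≤ 4 * k) :
    (2 * k + 1) ^ 2 * (2 ^ k * k.factorial) ^ 4 * 2 ^ (i * (2 * k - 1) + (i - 1) * (k - i)) <
      (2 * k + 1).factorial ^ 4 := by
  by_cases hs : k ≤ 324
  · refine Num.small k hs i ?_ hk h1 h2
    by_contra hi
    have : 2 ^ 12 ≤ 2 ^ i := Nat.pow_le_pow_right (by norm_num) (by omega)
    omega
  have e1 : 2 ^ (i * (2 * k - 1) + (i - 1) * (k - i)) ≤ (4 * k) ^ (3 * k) := by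
    have a1 : i * (2 * k - 1) ≤ i * (2 * k) := Nat.mul_le_mul_left _ (Nat.sub_le _ _)
    have a2 : (i - 1) * (k - i) ≤ i * k := Nat.mul_le_mul (Nat.sub_le _ _) (Nat.sub_le _ _)
    calc 2 ^ (i * (2 * k - 1) + (i - 1) * (k - i)) ≤ 2 ^ (i * (3 * k)) :=
          Nat.pow_le_pow_right (by norm_num) (by nlinarith)
      _ = (2 ^ i) ^ (3 * k) := by rw [pow_mul]
      _ ≤ (4 * k) ^ (3 * k) := Nat.pow_le_pow_left h2 _
  have e2 : (4 * k) ^ (3 * k) < (2 * k).factorial ^ 2 := by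
    have a1 := Nat.pow_le_pow_left (Num.pow_le (2 * k)) 2
    have a2 : 81 * (4 * k) ^ 3 < (2 * k) ^ 4 := by
      have : 0 < k ^ 3 := by positivity
      nlinarith
    have a3 := Nat.pow_lt_pow_left a2 (show k ≠ 0 by omega)
    have a4 : 81 ^ k * (4 * k) ^ (3 * k) < 81 ^ k * (2 * k).factorial ^ 2 := by
      calc 81 ^ k * (4 * k) ^ (3 * k) = (81 * (4 * k) ^ 3) ^ k := by rw [mul_pow 81, ← pow_mul]
        _ < ((2 * k) ^ 4) ^ k := a3
        _ = ((2 * k) ^ (2 * k)) ^ 2 := by rw [← pow_mul, ← pow_mul]; congr 1; ring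
        _ ≤ (3 ^ (2 * k) * (2 * k).factorial) ^ 2 := a1
        _ = 81 ^ k * (2 * k).factorial ^ 2 := by
          rw [mul_pow, ← pow_mul, show 2 * k * 2 = 4 * k by ring, pow_mul]
          norm_num
    exact Nat.lt_of_mul_lt_mul_left a4
  have e3 : (2 ^ k * k.factorial) ^ 4 ≤ (2 * k + 1).factorial ^ 2 := by
    calc (2 ^ k * k.factorial) ^ 4 = (4 ^ k * (k.factorial * k.factorial)) ^ 2 := by
          rw [show (4 : ℕ) ^ k = 2 ^ k * 2 ^ k by rw [← mul_pow]; norm_num]; ring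
      _ ≤ _ := Nat.pow_le_pow_left (Num.four_le hk) 2
  have hp : 0 < (2 * k + 1) ^ 2 * (2 * k + 1).factorial ^ 2 := by positivity
  calc _ ≤ (2 * k + 1) ^ 2 * (2 * k + 1).factorial ^ 2 * (4 * k) ^ (3 * k) :=
        Nat.mul_le_mul (Nat.mul_le_mul_left _ e3) e1
    _ < (2 * k + 1) ^ 2 * (2 * k + 1).factorial ^ 2 * (2 * k).factorial ^ 2 :=
        Nat.mul_lt_mul_of_pos_left e2 hp
    _ = _ := by rw [Nat.factorial_succ (2 * k)]; ring

end Cfsg.Agent.OIF
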