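import Mathlib
import Cfsg.Agent.OIF.Defs

set_option autoImplicit false

namespace Cfsg.Agent.OIF

open Subgroup

theorem card_dvd_of_perm {C Ω : Type*} [Group C] [Finite Ω] (φ : C →* Equiv.Perm Ω)
    (hφ : Function.Injective φ) (τ : Equiv.Perm Ω) (hτ : ∀ x, τ (τ x) = x) (hτ' : ∀ x, τ x ≠ x)
    (hc : ∀ c x, φ c (τ x) = τ (φ c x)) {k : ℕ} (hk : Nat.card Ω = 2 * k) :
    Nat.card C ∣ 2 ^ k * k.factorial := by
  classical
  let := Fintype.ofFinite Ω
  have h1 : φ.range ≤ centralizer {τ} := by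
    rintro _ ⟨c, rfl⟩
    rw [mem_centralizer_singleton_iff]
    ext x
    simp [hc]
  have h2 : Nat.card C ∣ Nat.card (centralizer {τ}) := by
    rw [Nat.card_congr (MonoidHom.ofInjective hφ).toEquiv]
    exact card_dvd_of_le h1
  have h3 : τ ^ 2 = 1 := by
    ext x
    simp [pow_two, hτ]
  have h4 := Equiv.Perm.cycleType_of_pow_prime_eq_one (p := 2) h3
  have h5 : τ.support = Finset.univ := by
    ext x
    simp [hτ']
  have h6 := τ.sum_cycleType
  rw [h5, Finset.card_univ, ← Nat.card_eq_fintype_card, hk] at h6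
  have h7 : τ.cycleType.card = k := by
    rw [h4, Multiset.sum_replicate, smul_eq_mul] at h6
    omega
  rw [h7] at h4
  rw [Equiv.Perm.nat_card_centralizer, h6, ← Nat.card_eq_fintype_card, hk, h4] at h2
  rcases Nat.eq_zero_or_pos k with rfl | hk0
  · simpa using h2
  · rw [Multiset.toFinset_replicate, if_neg hk0.ne'] at h2
    simpa using h2

namespace Perm

theorem card_ge {X : Type*} [CommGroup X] [Finite X] (hp : IsPGroup 2 X) (j : ℕ) (W : Subgroup X)
    (hW : ∀ w ∈ W, ∃ u : X, u ^ 2 ^ j = w) (hne : W ≠ ⊥) : 2 ^ j * Nat.card W ≤ Nat.card X := by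
  let f : X →* X := powMonoidHom (2 ^ j)
  have h1 : W ≤ f.range := fun w hw => hW w hw
  obtain ⟨⟨w, hw⟩, hw1⟩ := (ne_bot_iff_exists_ne_one.1 hne)
  obtain ⟨x, rfl⟩ := hW w hw
  have hx : x ^ 2 ^ j ≠ 1 := fun h => hw1 (Subtype.ext h)
  obtain ⟨e, he⟩ := IsPGroup.iff_orderOf.1 hp x
  have hej : j ≤ e := by
    by_contra h
    exact hx (orderOf_dvd_iff_pow_eq_one.1 (he ▸ pow_dvd_pow 2 (by omega)))
  have ho : orderOf (x ^ 2 ^ (e - j)) = 2 ^ j := by
    rw [orderOf_pow' _ (by positivity), he, Nat.gcd_eq_right (pow_dvd_pow 2 (by omega)),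
      Nat.pow_div (by omega) (by norm_num)]
    congr 1
    omega
  have h2 : zpowers (x ^ 2 ^ (e - j)) ≤ f.ker := by
    rw [zpowers_le, MonoidHom.mem_ker]
    show (x ^ 2 ^ (e - j)) ^ 2 ^ j = 1
    rw [← ho, pow_orderOf_eq_one]
  have h3 := card_le_of_le h2
  rw [Nat.card_zpowers, ho] at h3
  rw [← f.ker.card_mul_index, index_ker]
  exact Nat.mul_le_mul h3 (card_le_of_le h1)

theorem two_mul_le (c : ℕ) : 2 * c ≤ 2 ^ c := by
  rcases c with _ | c
  · simp
  · have := Nat.lt_two_pow_self (n := c)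
    rw [pow_succ]
    omega

theorem supp_ge {A Ω : Type*} [CommGroup A] [Finite A] [Finite Ω] [MulAction A Ω]
    (hf : ∀ a : A, (∀ x : Ω, a • x = x) → a = 1) (hp : IsPGroup 2 A) (j : ℕ) :
    ∀ (n : ℕ) (V : Subgroup A), Nat.card V = n → (∀ v ∈ V, ∃ u : A, u ^ 2 ^ j = v) →
      ∀ b : ℕ, 2 ^ b ≤ Nat.card V → 2 ^ (j + 1) * b ≤ {x : Ω | ∃ v ∈ V, v • x ≠ x}.ncard := by
  intro n
  induction n using Nat.strong_induction_on with
  | _ n ih =>
  intro V hn hV b hb
  by_cases hbot : V = ⊥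
  · subst hbot
    rw [card_bot] at hb
    have : b = 0 := by
      by_contra h
      have := Nat.one_lt_two_pow h
      omega
    simp [this]
  obtain ⟨⟨v, hv⟩, hv1⟩ := (ne_bot_iff_exists_ne_one.1 hbot)
  have : ∃ w : Ω, v • w ≠ w := by
    by_contra h
    push Not at h
    exact hv1 (Subtype.ext (hf v h))
  obtain ⟨w, hw⟩ := this
  set S := MulAction.stabilizer A w with hS
  have hcard : Nat.card (V ⊓ S : Subgroup A) * S.relIndex V = Nat.card V := by
    rw [← inf_relIndex_left]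
    have := (V ⊓ S).subgroupOf V |>.card_mul_index
    rwa [Nat.card_congr (subgroupOfEquivOfLe (inf_le_left : V ⊓ S ≤ V)).toEquiv] at this
  have hq : IsPGroup 2 (A ⧸ S) := hp.to_quotient S
  have hW : Nat.card (V.map (QuotientGroup.mk' S)) = S.relIndex V := by
    rw [← relIndex_ker, QuotientGroup.ker_mk']
  have hne : V.map (QuotientGroup.mk' S) ≠ ⊥ := by
    intro h
    rw [Subgroup.map_eq_bot_iff, QuotientGroup.ker_mk'] at h
    exact hw (h hv)
  have hge := card_ge hq j (V.map (QuotientGroup.mk' S)) (by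
    rintro _ ⟨x, hx, rfl⟩
    obtain ⟨u, rfl⟩ := hV x hx
    exact ⟨_, (map_pow (QuotientGroup.mk' S) u _).symm⟩) hne
  obtain ⟨c, hc⟩ := IsPGroup.iff_card.1 (hq.to_subgroup (V.map (QuotientGroup.mk' S)))
  have hc0 : c ≠ 0 := by
    rintro rfl
    exact hne (card_eq_one.1 (by simpa using hc))
  rw [hc] at hge hW
  rw [← hW] at hcard
  have hO : Nat.card (A ⧸ S) = (MulAction.orbit A w).ncard := by
    rw [← index_eq_card, MulAction.index_stabilizer]
  have hpos : 0 < Nat.card (V ⊓ S : Subgroup A) := Nat.card_pos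
  have h2c := Nat.one_lt_two_pow hc0
  have hlt : Nat.card (V ⊓ S : Subgroup A) < n := by
    rw [← hn, ← hcard]
    exact lt_mul_of_one_lt_right hpos h2c
  have hb' : 2 ^ (b - c) ≤ Nat.card (V ⊓ S : Subgroup A) := by
    rcases le_total b c with h | h
    · rw [Nat.sub_eq_zero_of_le h]
      exact hpos
    · rw [← hcard, ← Nat.sub_add_cancel h, pow_add] at hb
      exact Nat.le_of_mul_le_mul_right hb (by positivity)
  have h1 := ih _ hlt (V ⊓ S) rfl (fun x hx => hV x hx.1) (b - c) hb'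
  have hd : Disjoint {x : Ω | ∃ v ∈ V ⊓ S, v • x ≠ x} (MulAction.orbit A w) := by
    rw [Set.disjoint_left]
    rintro _ ⟨x, hx, hx'⟩ ⟨u, rfl⟩
    apply hx'
    show x • u • w = u • w
    rw [smul_comm, show x • w = w from hx.2]
  have hsub : {x : Ω | ∃ v ∈ V ⊓ S, v • x ≠ x} ∪ MulAction.orbit A w ⊆
      {x : Ω | ∃ v ∈ V, v • x ≠ x} := by
    rintro y (⟨x, hx, hx'⟩ | ⟨u, rfl⟩)
    · exact ⟨x, hx.1, hx'⟩
    · refine ⟨v, hv, fun h => hw ?_⟩
      have h' : v • u • w = u • w := h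
      rw [smul_comm] at h'
      exact MulAction.injective u h'
  have h2 := Set.ncard_le_ncard hsub (Set.toFinite _)
  rw [Set.ncard_union_eq hd (Set.toFinite _) (Set.toFinite _), ← hO] at h2
  have h3 : 2 ^ (j + 1) * c ≤ 2 ^ j * 2 ^ c := by
    rw [pow_succ, mul_assoc]
    exact Nat.mul_le_mul_left _ (two_mul_le c)
  have h4 : 2 ^ (j + 1) * b ≤ 2 ^ (j + 1) * (b - c) + 2 ^ (j + 1) * c := by
    rw [← mul_add]
    exact Nat.mul_le_mul_left _ (by omega)
  omega

end Perm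

theorem pb_of_perm {C Ω : Type*} [Group C] [Finite Ω] (φ : C →* Equiv.Perm Ω)
    (hφ : Function.Injective φ) {k : ℕ} (hk : Nat.card Ω = 2 * k) : PB k (⊤ : Subgroup C) := by
  intro U V _ hc hp j b hV hb
  have : Finite C := Finite.of_injective φ hφ
  let : CommGroup U :=
    { (inferInstance : Group U) with mul_comm := fun x y => Subtype.ext (hc _ x.2 _ y.2) }
  let : MulAction U Ω := MulAction.compHom Ω (φ.comp U.subtype)
  have hVU : V ≤ U := fun v hv => by
    obtain ⟨u, hu, rfl⟩ := hV v hv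
    exact U.pow_mem hu _
  have h := Perm.supp_ge (A := U) (Ω := Ω) (fun a ha => by
    apply Subtype.ext
    apply hφ
    ext x
    rw [OneMemClass.coe_one, map_one]
    exact ha x) hp j _ (V.subgroupOf U) rfl (fun v hv => by
      obtain ⟨u, hu, h⟩ := hV v.1 hv
      exact ⟨⟨u, hu⟩, Subtype.ext h⟩) b
    (by rwa [Nat.card_congr (subgroupOfEquivOfLe hVU).toEquiv])
  have h2 := h.trans (Set.ncard_le_card _)
  rw [hk, pow_succ] at h2
  nlinarith

end Cfsg.Agent.OIF
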